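import Mathlib
import Cfsg.Statements.S3206

/-!
# Project JR (S3206): groups of Janko–Ree type — interface

Package propositions for the team proof of S3206.  Only Mathlib and the frozen statement
file (for `Cfsg.IsInternalDirectProduct`) are used here.
-/

set_option autoImplicit false

namespace Cfsg.Agent.Lib.Helper35.JR

universe u v

/-! ## Abstract data -/

/-- Sylow 2-subgroups are elementary abelian of order 8. -/
def S8 (G : Type u) [Group G] : Prop :=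
  ∀ S : Sylow 2 G, Nat.card ↥(S : Subgroup G) = 8 ∧ ∀ x ∈ (S : Subgroup G), x ^ 2 = 1

/-- `N_G(S)` is transitive on the involutions of every Sylow 2-subgroup `S`. -/
def Fus (G : Type u) [Group G] : Prop :=
  ∀ S : Sylow 2 G, ∀ s ∈ (S : Subgroup G), s ≠ 1 → ∀ s' ∈ (S : Subgroup G), s' ≠ 1 →
    ∃ n ∈ Subgroup.normalizer ((S : Subgroup G) : Set G), n * s * n⁻¹ = s'

/-- `Z(C_G(t)) = ⟨t⟩`. -/
def ZC (G : Type u) [Group G] (t : G) : Prop :=
  ∀ x ∈ Subgroup.centralizer ({t} : Set G),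
    (∀ y ∈ Subgroup.centralizer ({t} : Set G), x * y = y * x) → x ∈ Subgroup.zpowers t

/-- A 2-power-order automorphism fixing a Sylow 2-subgroup `S ∋ t` pointwise acts on `C_G(t)`
as conjugation by an element of `S`. -/
def Loc (G : Type u) [Group G] (t : G) : Prop :=
  ∀ (ψ : G ≃* G) (k : ℕ), ψ ^ (2 ^ k) = 1 → ∀ S : Sylow 2 G, t ∈ (S : Subgroup G) →
    (∀ x ∈ (S : Subgroup G), ψ x = x) →
    ∃ w ∈ (S : Subgroup G), ∀ x ∈ Subgroup.centralizer ({t} : Set G), ψ x = w * x * w⁻¹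

/-- Local data of a group `N ≅ PSL₂(q)` with abelian Sylow 2-subgroups. -/
def NLoc (N : Type u) [Group N] : Prop :=
  IsSimpleGroup N ∧ Subgroup.closure {y : N | ∃ x : N, x ^ 2 = y} = ⊤ ∧
  (∀ P : Sylow 2 N, Nat.card ↥(P : Subgroup N) = 4 ∧ ∀ x ∈ (P : Subgroup N), x ^ 2 = 1) ∧
  (∀ (α : N ≃* N) (k : ℕ), α ^ (2 ^ k) = 1 → ∀ P : Sylow 2 N,
    (∀ x ∈ (P : Subgroup N), α x = x) → ∃ v ∈ (P : Subgroup N), ∀ x : N, α x = v * x * v⁻¹)

/-- Local data of the factor `E` of `C_G(t) = ⟨t⟩ × E`. -/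
def ELoc (E : Type u) [Group E] : Prop :=
  Subgroup.closure {y : E | ∃ x : E, x ^ 2 = y} = ⊤ ∧
  (∀ T : Sylow 2 E, Nat.card ↥(T : Subgroup E) = 4 ∧ ∀ x ∈ (T : Subgroup E), x ^ 2 = 1) ∧
  (∀ (β : E ≃* E) (k : ℕ), β ^ (2 ^ k) = 1 → ∀ T : Sylow 2 E,
    (∀ x ∈ (T : Subgroup E), β x = x) → ∃ v ∈ (T : Subgroup E), ∀ x : E, β x = v * x * v⁻¹)

/-! ## The explicit four-group of `PSL₂(F)` -/

/-- `A = [[0,-1],[1,0]]` in `SL₂(F)`. -/
def elA (F : Type u) [Field F] : Matrix.SpecialLinearGroup (Fin 2) F :=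
  ⟨!![0, -1; 1, 0], by simp [Matrix.det_fin_two]⟩

/-- `B = [[a,b],[b,-a]]` in `SL₂(F)`, where `a² + b² = -1`. -/
def elB {F : Type u} [Field F] (a b : F) (h : a ^ 2 + b ^ 2 = -1) :
    Matrix.SpecialLinearGroup (Fin 2) F :=
  ⟨!![a, b; b, -a], by rw [Matrix.det_fin_two_of]; linear_combination (-1 : F) * h⟩

/-- The image of `A` in `PSL₂(F)`. -/
def pA (F : Type u) [Field F] : Matrix.ProjectiveSpecialLinearGroup (Fin 2) F :=
  QuotientGroup.mk (elA F)

/-- The image of `B` in `PSL₂(F)`. -/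
def pB {F : Type u} [Field F] (a b : F) (h : a ^ 2 + b ^ 2 = -1) :
    Matrix.ProjectiveSpecialLinearGroup (Fin 2) F :=
  QuotientGroup.mk (elB a b h)

/-- The four-group `V₀ = {1, A, B, AB}` of `PSL₂(F)` (as a set). -/
def V0 {F : Type u} [Field F] (a b : F) (h : a ^ 2 + b ^ 2 = -1) :
    Set (Matrix.ProjectiveSpecialLinearGroup (Fin 2) F) :=
  {1, pA F, pB a b h, pA F * pB a b h}

/-! ## Packages: `PSL₂(F)` -/

/-- [V0] the matrices commuting with `A` and `B` up to sign are the scalar multiples of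
`1, A, B, AB`. -/
def PkgV0 : Prop :=
  ∀ (F : Type u) [Field F], (2 : F) ≠ 0 → ∀ (a b : F), a ^ 2 + b ^ 2 = -1 →
    ∀ M : Matrix (Fin 2) (Fin 2) F,
      (M * !![0, -1; 1, 0] = !![0, -1; 1, 0] * M ∨ M * !![0, -1; 1, 0] = -(!![0, -1; 1, 0] * M)) →
      (M * !![a, b; b, -a] = !![a, b; b, -a] * M ∨ M * !![a, b; b, -a] = -(!![a, b; b, -a] * M)) →
      ∃ c : F, M = c • (1 : Matrix (Fin 2) (Fin 2) F) ∨ M = c • !![0, -1; 1, 0] ∨
        M = c • !![a, b; b, -a] ∨ M = c • (!![0, -1; 1, 0] * !![a, b; b, -a])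

/-- [SYL4] if the Sylow 2-subgroups of `PSL₂(F)` are abelian, each is a conjugate of `V₀`, of
order 4 and exponent 2. -/
def PkgSyl4 : Prop :=
  ∀ (F : Type u) [Field F] [Fintype F], (2 : F) ≠ 0 → ∀ (a b : F) (h : a ^ 2 + b ^ 2 = -1),
    (∀ P : Sylow 2 (Matrix.ProjectiveSpecialLinearGroup (Fin 2) F),
      ∀ x ∈ (P : Subgroup (Matrix.ProjectiveSpecialLinearGroup (Fin 2) F)), ∀ y ∈ (P : Subgroup (Matrix.ProjectiveSpecialLinearGroup (Fin 2) F)), x * y = y * x) →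
    ∀ P : Sylow 2 (Matrix.ProjectiveSpecialLinearGroup (Fin 2) F),
      Nat.card ↥(P : Subgroup (Matrix.ProjectiveSpecialLinearGroup (Fin 2) F)) = 4 ∧ (∀ x ∈ (P : Subgroup (Matrix.ProjectiveSpecialLinearGroup (Fin 2) F)), x ^ 2 = 1) ∧
      ∃ g : Matrix.ProjectiveSpecialLinearGroup (Fin 2) F,
        ∀ x, x ∈ (P : Subgroup (Matrix.ProjectiveSpecialLinearGroup (Fin 2) F)) ↔ g⁻¹ * x * g ∈ V0 a b h

/-- [KEY0] an automorphism of `PSL₂(F)` of 2-power order fixing `A` and `B` is conjugation by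
an element of `V₀`, provided `Aut(F)` has no nontrivial 2-elements. -/
def PkgKey0 : Prop :=
  ∀ (F : Type u) [Field F] [Fintype F], (2 : F) ≠ 0 → ∀ (a b : F) (h : a ^ 2 + b ^ 2 = -1),
    (∀ (σ : RingAut F) (k : ℕ), σ ^ (2 ^ k) = 1 → σ = 1) →
    ∀ (α : Matrix.ProjectiveSpecialLinearGroup (Fin 2) F ≃*
        Matrix.ProjectiveSpecialLinearGroup (Fin 2) F) (k : ℕ), α ^ (2 ^ k) = 1 →
      α (pA F) = pA F → α (pB a b h) = pB a b h →
      ∃ v ∈ V0 a b h, ∀ x, α x = v * x * v⁻¹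

/-- [FODD] if the Sylow 2-subgroups of `PSL₂(F)` have exponent 2 (`|F|` odd), then `Aut(F)`
has no nontrivial 2-elements. -/
def PkgFodd : Prop :=
  ∀ (F : Type u) [Field F] [Fintype F], Odd (Fintype.card F) →
    (∀ P : Sylow 2 (Matrix.ProjectiveSpecialLinearGroup (Fin 2) F),
      ∀ x ∈ (P : Subgroup (Matrix.ProjectiveSpecialLinearGroup (Fin 2) F)), x ^ 2 = 1) →
    ∀ (σ : RingAut F) (k : ℕ), σ ^ (2 ^ k) = 1 → σ = 1

/-- [PSL] the two facts on `PSL₂(F)` with abelian Sylow 2-subgroups. -/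
def PkgPSL : Prop :=
  ∀ (F : Type u) [Field F] [Fintype F], Odd (Fintype.card F) → 3 < Fintype.card F →
    (∀ P : Sylow 2 (Matrix.ProjectiveSpecialLinearGroup (Fin 2) F),
      ∀ x ∈ (P : Subgroup (Matrix.ProjectiveSpecialLinearGroup (Fin 2) F)), ∀ y ∈ (P : Subgroup (Matrix.ProjectiveSpecialLinearGroup (Fin 2) F)), x * y = y * x) →
    (∀ P : Sylow 2 (Matrix.ProjectiveSpecialLinearGroup (Fin 2) F),
      Nat.card ↥(P : Subgroup (Matrix.ProjectiveSpecialLinearGroup (Fin 2) F)) = 4 ∧ ∀ x ∈ (P : Subgroup (Matrix.ProjectiveSpecialLinearGroup (Fin 2) F)), x ^ 2 = 1) ∧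
    (∀ (α : Matrix.ProjectiveSpecialLinearGroup (Fin 2) F ≃*
        Matrix.ProjectiveSpecialLinearGroup (Fin 2) F) (k : ℕ), α ^ (2 ^ k) = 1 →
      ∀ P : Sylow 2 (Matrix.ProjectiveSpecialLinearGroup (Fin 2) F),
        (∀ x ∈ (P : Subgroup (Matrix.ProjectiveSpecialLinearGroup (Fin 2) F)), α x = x) → ∃ v ∈ (P : Subgroup (Matrix.ProjectiveSpecialLinearGroup (Fin 2) F)), ∀ x, α x = v * x * v⁻¹)

/-- [NL] transport to an abstract group `N ≅ PSL₂(F)`, plus simplicity and generation by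
squares. -/
def PkgNL : Prop :=
  ∀ (N : Type u) [Group N] [Finite N] (F : Type v) [Field F] [Fintype F],
    Odd (Fintype.card F) → 3 < Fintype.card F →
    Nonempty (N ≃* Matrix.ProjectiveSpecialLinearGroup (Fin 2) F) →
    (∀ P : Sylow 2 N, ∀ x ∈ (P : Subgroup N), ∀ y ∈ (P : Subgroup N), x * y = y * x) → NLoc N

/-! ## Packages: abstract group theory -/

/-- [EL] from a normal subgroup `N` with `NLoc N` and `C_E(N) = 1` to `ELoc E`. -/
def PkgEL : Prop :=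
  ∀ (E : Type u) [Group E] [Finite E],
    (∀ T : Sylow 2 E, ∀ x ∈ (T : Subgroup E), ∀ y ∈ (T : Subgroup E), x * y = y * x) →
    ∀ (N : Subgroup E) [N.Normal], NLoc ↥N → Subgroup.centralizer (N : Set E) = ⊥ → ELoc E

/-- [ZC] `Z(C_G(t)) = ⟨t⟩`. -/
def PkgZC : Prop :=
  ∀ (G : Type u) [Group G] (t : G) (E : Subgroup G),
    Cfsg.IsInternalDirectProduct (Subgroup.zpowers t) E (Subgroup.centralizer ({t} : Set G)) →
    ∀ (N : Subgroup ↥E), Subgroup.centralizer (N : Set ↥E) = ⊥ → ZC G t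

/-- [S8] Sylow 2-subgroups of `G` are elementary abelian of order 8. -/
def PkgS8 : Prop :=
  ∀ (G : Type u) [Group G] [Finite G],
    (∀ S : Sylow 2 G, ∀ x ∈ (S : Subgroup G), ∀ y ∈ (S : Subgroup G), x * y = y * x) →
    ∀ (t : G), orderOf t = 2 → ∀ (E : Subgroup G),
      Cfsg.IsInternalDirectProduct (Subgroup.zpowers t) E (Subgroup.centralizer ({t} : Set G)) →
      ELoc ↥E → S8 G

/-- [LOC] the local automorphism statement. -/
def PkgLoc : Prop :=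
  ∀ (G : Type u) [Group G] [Finite G],
    (∀ S : Sylow 2 G, ∀ x ∈ (S : Subgroup G), ∀ y ∈ (S : Subgroup G), x * y = y * x) →
    ∀ (t : G), orderOf t = 2 → ∀ (E : Subgroup G),
      Cfsg.IsInternalDirectProduct (Subgroup.zpowers t) E (Subgroup.centralizer ({t} : Set G)) →
      ELoc ↥E → Loc G t

/-- [FUS] fusion of involutions in a simple group with Sylow 2-subgroups `E₈`. -/
def PkgFus : Prop :=
  ∀ (G : Type u) [Group G] [Finite G] [IsSimpleGroup G], ¬ IsMulCommutative G → S8 G → Fus G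

/-- [AUT] the second conjunct of S3206 from the abstract data. -/
def PkgAut : Prop :=
  ∀ (G : Type u) [Group G] [Finite G] (t : G), orderOf t = 2 →
    IsCoatom (Subgroup.centralizer ({t} : Set G)) → S8 G → Fus G → ZC G t → Loc G t →
    ∀ (φ : G ≃* G) (k : ℕ), φ ^ (2 ^ k) = 1 →
      (∃ S : Sylow 2 G, ∀ s ∈ (S : Subgroup G), φ s = s) → ∃ g : G, ∀ x : G, φ x = g * x * g⁻¹

/-- [MULT] the first conjunct of S3206 from the abstract data. -/
def PkgMult : Prop :=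
  ∀ (G : Type u) [Group G] [Finite G], S8 G → Fus G →
    ∀ (L : Type) (_ : Group L) (_ : Finite L) (Z : Subgroup L) (_ : Z.Normal),
      commutator L = ⊤ → Z ≤ Subgroup.center L → IsPGroup 2 ↥Z → Nonempty (L ⧸ Z ≃* G) → Z = ⊥

end Cfsg.Agent.Lib.Helper35.JR
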