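import Mathlib
import Cfsg.Agent.Lib.Helper35.JR.Defs

/-!
# Project JR (S3206): assembly from the package propositions
-/

set_option autoImplicit false

namespace Cfsg.Agent.Lib.Helper35.JR

universe u v

/-- Abelian Sylow 2-subgroups (elementwise form) pass to subgroups. -/
theorem sylow_comm_subgroup {G : Type u} [Group G] [Finite G]
    (h : ∀ S : Sylow 2 G, ∀ x ∈ (S : Subgroup G), ∀ y ∈ (S : Subgroup G), x * y = y * x)
    (H : Subgroup G) :
    ∀ T : Sylow 2 ↥H, ∀ x ∈ (T : Subgroup ↥H), ∀ y ∈ (T : Subgroup ↥H), x * y = y * x := by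
  intro T x hx y hy
  have hT : IsPGroup 2 ↥((T : Subgroup ↥H).map H.subtype) := T.isPGroup'.map _
  obtain ⟨S, hS⟩ := hT.exists_le_sylow
  have h1 := h S (x : G) (hS ⟨x, hx, rfl⟩) (y : G) (hS ⟨y, hy, rfl⟩)
  exact Subtype.ext h1

/-- S3206 from the package propositions. -/
theorem s3206_core (hNL : PkgNL.{u, v}) (hEL : PkgEL.{u}) (hZC : PkgZC.{u}) (hS8 : PkgS8.{u})
    (hLoc : PkgLoc.{u}) (hFus : PkgFus.{u}) (hAut : PkgAut.{u}) (hMult : PkgMult.{u})
    {G : Type u} [Group G] [Finite G] [IsSimpleGroup G]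
    (hG : ¬ IsMulCommutative G) (hab : ∀ S : Sylow 2 G, IsMulCommutative ↥(S : Subgroup G))
    (t : G) (ht : orderOf t = 2) (hmax : IsCoatom (Subgroup.centralizer ({t} : Set G)))
    (E : Subgroup G)
    (hE : Cfsg.IsInternalDirectProduct (Subgroup.zpowers t) E (Subgroup.centralizer ({t} : Set G)))
    {F : Type v} [Field F] [Fintype F] (hFo : Odd (Fintype.card F)) (hF3 : 3 < Fintype.card F)
    (N : Subgroup ↥E) [N.Normal]
    (hN : Nonempty (↥N ≃* Matrix.ProjectiveSpecialLinearGroup (Fin 2) F))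
    (hNc : Subgroup.centralizer (N : Set ↥E) = ⊥) :
    (∀ (L : Type) (_ : Group L) (_ : Finite L) (Z : Subgroup L) (_ : Z.Normal), commutator L = ⊤ →
        Z ≤ Subgroup.center L → IsPGroup 2 ↥Z → Nonempty (L ⧸ Z ≃* G) → Z = ⊥) ∧
    (∀ (φ : G ≃* G) (k : ℕ), φ ^ (2 ^ k) = 1 →
        (∃ S : Sylow 2 G, ∀ s ∈ (S : Subgroup G), φ s = s) →
        ∃ g : G, ∀ x : G, φ x = g * x * g⁻¹) := by
  have habG : ∀ S : Sylow 2 G, ∀ x ∈ (S : Subgroup G), ∀ y ∈ (S : Subgroup G),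
      x * y = y * x := by
    intro S x hx y hy
    have h1 := (hab S).is_comm.comm ⟨x, hx⟩ ⟨y, hy⟩
    exact congrArg Subtype.val h1
  have habE := sylow_comm_subgroup habG E
  have habN := sylow_comm_subgroup habE N
  have hNLoc : NLoc ↥N := hNL ↥N F hFo hF3 hN habN
  have hELoc : ELoc ↥E := hEL ↥E habE N hNLoc hNc
  have h8 : S8 G := hS8 G habG t ht E hE hELoc
  have hL : Loc G t := hLoc G habG t ht E hE hELoc
  have hZ : ZC G t := hZC G t E hE N hNc
  have hF : Fus G := hFus G hG h8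
  exact ⟨hMult G h8 hF, hAut G t ht hmax h8 hF hZ hL⟩

end Cfsg.Agent.Lib.Helper35.JR
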